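import Cfsg.Agent.H647.HM.Kill
import Cfsg.Agent.H647.HM.Conf
import Cfsg.Agent.H35.HM.Chain

/-!
# S5175, T7c, T7d (helper647)
-/

set_option autoImplicit false

namespace Cfsg.Agent.H647.HM

open Cfsg Cfsg.Agent.H756.HM

universe u

theorem stKill : StKill.{u} := kill_of Cfsg.Agent.H35.HM.chain

end Cfsg.Agent.H647.HM
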