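import Cfsg.Agent.H756.HM.Stmts
import Cfsg.Agent.Transfer.Residual
import Cfsg.Agent.Lib.Cores

/-!
# S5175, T7a: the swap (helper647)
-/

set_option autoImplicit false
set_option linter.unusedSectionVars false

namespace Cfsg.Agent.H647.HM

open Cfsg Cfsg.Agent.H756.HM Subgroup
open scoped commutatorElement

universe u

/-! ### automorphisms of a group whose square is inner -/

section aut

variable {Γ : Type*} [Group Γ] {ξ : MulAut Γ} {t₀ : Γ} (hξ : ξ * ξ = MulAut.conj t₀)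

theorem mem_tw {Y : Subgroup Γ} {y : Γ} : y ∈ Y.map ξ.toMonoidHom ↔ ξ⁻¹ y ∈ Y := by
  constructor
  · rintro ⟨z, hz, rfl⟩
    have : ξ⁻¹ (ξ z) = z := MulAut.inv_apply_self Γ ξ z
    exact this.symm ▸ hz
  · intro h
    exact ⟨ξ⁻¹ y, h, MulAut.apply_inv_self Γ ξ y⟩

theorem ap_mem_tw {Y : Subgroup Γ} {y : Γ} : ξ y ∈ Y.map ξ.toMonoidHom ↔ y ∈ Y := by
  rw [mem_tw, MulAut.inv_apply_self]

include hξ

theorem ap_ap (y : Γ) : ξ (ξ y) = t₀ * y * t₀⁻¹ := by
  have := congrArg (fun f : MulAut Γ => f y) hξ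
  simpa using this

/-- on normal subgroups `ξ` and `ξ⁻¹` agree -/
theorem inv_mem_iff {Y : Subgroup Γ} (hY : Y.Normal) {y : Γ} : ξ⁻¹ y ∈ Y ↔ ξ y ∈ Y := by
  have h1 : ξ y = t₀ * ξ⁻¹ y * t₀⁻¹ := by
    rw [← ap_ap hξ, MulAut.apply_inv_self]
  rw [h1]
  constructor
  · intro h
    exact hY.conj_mem _ h t₀
  · intro h
    have h2 := hY.conj_mem _ h t₀⁻¹
    simpa [mul_assoc] using h2

theorem mem_tw' {Y : Subgroup Γ} (hY : Y.Normal) {y : Γ} : y ∈ Y.map ξ.toMonoidHom ↔ ξ y ∈ Y := by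
  rw [mem_tw, inv_mem_iff hξ hY]

theorem tw_tw {Y : Subgroup Γ} (hY : Y.Normal) : (Y.map ξ.toMonoidHom).map ξ.toMonoidHom = Y := by
  ext y
  rw [mem_tw, mem_tw, inv_mem_iff hξ hY, MulAut.apply_inv_self]

end aut

theorem tw_normal {Γ : Type*} [Group Γ] {ξ : MulAut Γ} {Y : Subgroup Γ} (hY : Y.Normal) :
    (Y.map ξ.toMonoidHom).Normal :=
  hY.map _ ξ.surjective

theorem cm_left {Γ : Type*} [Group Γ] {N : Subgroup Γ} (hN : N.Normal) {a : Γ} (ha : a ∈ N) (b : Γ) : ⁅a, b⁆ ∈ N := by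
  rw [commutatorElement_def, mul_assoc, mul_assoc, ← mul_assoc b]
  exact N.mul_mem ha (hN.conj_mem _ (N.inv_mem ha) b)

theorem cm_right {Γ : Type*} [Group Γ] {N : Subgroup Γ} (hN : N.Normal) (a : Γ) {b : Γ} (hb : b ∈ N) : ⁅a, b⁆ ∈ N := by
  rw [commutatorElement_def]
  exact N.mul_mem (hN.conj_mem _ hb a) (N.inv_mem hb)

/-! ### a Sylow subgroup `T` of `P`, as a group -/

section basic

variable {P : Type u} [Group P] [Finite P] {T : Sylow 2 P}

theorem normal_of {X : Subgroup P} (hK : pResidual 2 P ≤ normalizer (X : Set P))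
    (hT : (T : Subgroup P) ≤ normalizer (X : Set P)) : X.Normal := by
  rw [← normalizer_eq_top_iff, eq_top_iff, ← Cfsg.Agent.Transfer.Residual.pResidual_sup_sylow T]
  exact sup_le hK hT

theorem le_norm_map {X : Subgroup ↥(T : Subgroup P)} (hX : X.Normal) :
    (T : Subgroup P) ≤ normalizer (X.map (T : Subgroup P).subtype : Set P) := by
  rw [le_normalizer_iff]
  rintro t ht _ ⟨x, hx, rfl⟩
  exact ⟨⟨t, ht⟩ * x * ⟨t, ht⟩⁻¹, hX.conj_mem x hx _, rfl⟩

theorem map_sub {X : Subgroup P} (hX : X ≤ T) : (X.subgroupOf (T : Subgroup P)).map (T : Subgroup P).subtype = X := by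
  rw [subgroupOf_map_subtype, inf_of_le_left hX]

theorem cent_map (X Y : Subgroup ↥(T : Subgroup P)) :
    (X ⊓ centralizer (Y : Set ↥(T : Subgroup P))).map (T : Subgroup P).subtype =
      X.map (T : Subgroup P).subtype ⊓ centralizer (Y.map (T : Subgroup P).subtype : Set P) := by
  ext z
  constructor
  · rintro ⟨x, ⟨hx, hx2⟩, rfl⟩
    refine ⟨⟨x, hx, rfl⟩, ?_⟩
    refine mem_centralizer_iff.2 ?_
    rintro _ ⟨y, hy, rfl⟩
    exact congrArg Subtype.val (mem_centralizer_iff.1 hx2 y hy)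
  · rintro ⟨⟨x, hx, rfl⟩, h2⟩
    refine ⟨x, ⟨hx, ?_⟩, rfl⟩
    refine mem_centralizer_iff.2 ?_
    intro y hy
    exact Subtype.ext (mem_centralizer_iff.1 h2 y ⟨y, hy, rfl⟩)

theorem relIndex_sub (X Y : Subgroup ↥(T : Subgroup P)) :
    (X.map (T : Subgroup P).subtype).relIndex (Y.map (T : Subgroup P).subtype) = X.relIndex Y :=
  relIndex_map_map_of_injective X Y (T : Subgroup P).subtype_injective

theorem Q_le : pCore 2 P ≤ (T : Subgroup P) := Cfsg.Agent.Lib.Cores.pCore_le_sylow T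

theorem Q_normal : (pCore 2 P).Normal := Cfsg.Agent.Lib.Cores.pCore_normal 2

theorem K_normal : (pResidual 2 P).Normal := Cfsg.Agent.Transfer.Residual.pResidual_normal 2

/-- the subgroup `Q` inside `T` -/
abbrev Qs (T : Sylow 2 P) : Subgroup ↥(T : Subgroup P) := (pCore 2 P).subgroupOf (T : Subgroup P)

theorem Qs_normal : (Qs T).Normal := Q_normal.subgroupOf _

end basic

/-! ### the first part of the swap analysis -/

section swap

variable {P : Type u} [Group P] [Finite P] {T : Sylow 2 P} (d : BD (T : Subgroup P))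

theorem W_le_T : d.W ≤ (T : Subgroup P) := d.W_le.trans Q_le

/-- the subgroup `W` inside `T` -/
abbrev Ws : Subgroup ↥(T : Subgroup P) := d.W.subgroupOf (T : Subgroup P)

theorem Ws_normal : (Ws d).Normal := d.W_normal.subgroupOf _

theorem CTW_iff {t : ↥(T : Subgroup P)} : (∀ w ∈ Ws d, w * t = t * w) ↔ t ∈ Qs T := by
  have h1 := d.CTW
  constructor
  · intro h
    rw [mem_subgroupOf, ← h1]
    refine ⟨t.2, ?_⟩
    refine mem_centralizer_iff.2 ?_
    intro w hw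
    exact congrArg Subtype.val (h ⟨w, W_le_T d hw⟩ hw)
  · intro h w hw
    exact Subtype.ext (d.W_comm w hw t h)

theorem W_ne : d.W ≠ ⊥ := by
  intro h
  apply d.T0_ne
  refine le_antisymm ?_ d.Q_le_T0
  intro t ht
  rw [← d.CTW]
  refine ⟨d.T0_le ht, ?_⟩
  rw [h]
  exact mem_centralizer_iff.2 fun w hw => by
    rw [SetLike.mem_coe, mem_bot] at hw
    rw [hw, one_mul, mul_one]

theorem Ws_ne : Ws d ≠ ⊥ := by
  intro h
  apply W_ne d
  rw [← map_sub (W_le_T d), show d.W.subgroupOf (T : Subgroup P) = ⊥ from h, Subgroup.map_bot]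

/-- subgroups between `W` and `Q` are normalised by `O²(P)` -/
theorem K_norm {X : Subgroup P} (h1 : d.W ≤ X) (h2 : X ≤ pCore 2 P) :
    pResidual 2 P ≤ normalizer (X : Set P) := by
  rw [le_normalizer_iff]
  intro k hk x hx
  have h3 : ⁅x, k⁆ ∈ d.W := d.QK (commutator_mem_commutator (h2 hx) hk)
  have h4 := X.mul_mem (X.inv_mem (h1 h3)) hx
  have h5 : ⁅x, k⁆⁻¹ * x = k * x * k⁻¹ := by
    rw [commutatorElement_def]
    group
  rwa [h5] at h4

variable {ξ : MulAut ↥(T : Subgroup P)} {t₀ : ↥(T : Subgroup P)} (hξ : ξ * ξ = MulAut.conj t₀)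
  (hD : ∀ D : Subgroup ↥(T : Subgroup P), D ≠ ⊥ → (D.map (T : Subgroup P).subtype).Normal →
      D.map ξ.toMonoidHom ≠ D)

include hξ hD in
/-- `W^ξ` is not contained in `Q` -/
theorem Wx_not_le : ¬ (Ws d).map ξ.toMonoidHom ≤ Qs T := by
  intro h
  have hWn := Ws_normal d
  have hXn : (Ws d ⊔ (Ws d).map ξ.toMonoidHom).Normal :=
    @sup_normal _ _ _ _ hWn (tw_normal hWn)
  refine hD (Ws d ⊔ (Ws d).map ξ.toMonoidHom) ?_ ?_ ?_
  · intro h1
    exact Ws_ne d (le_bot_iff.1 (h1 ▸ le_sup_left))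
  · refine normal_of (T := T) (K_norm d ?_ ?_) (le_norm_map hXn)
    · rw [← map_sub (W_le_T d)]
      exact map_mono le_sup_left
    · rw [← map_sub (Q_le (T := T))]
      exact map_mono (sup_le (comap_mono d.W_le) h)
  · rw [Subgroup.map_sup, tw_tw hξ hWn, sup_comm]

/-- the subgroup `T₀` inside `T` -/
abbrev T0s : Subgroup ↥(T : Subgroup P) := d.T0.subgroupOf (T : Subgroup P)

omit [Finite P] in
theorem cent_tw {Γ : Type*} [Group Γ] (ξ : MulAut Γ) (X Y : Subgroup Γ) :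
    (X ⊓ centralizer (Y : Set Γ)).map ξ.toMonoidHom =
      X.map ξ.toMonoidHom ⊓ centralizer (Y.map ξ.toMonoidHom : Set Γ) := by
  ext z
  rw [mem_tw, mem_inf, mem_inf, mem_tw]
  refine and_congr_right fun _ => ?_
  rw [mem_centralizer_iff, mem_centralizer_iff]
  constructor
  · rintro h _ ⟨y, hy, rfl⟩
    have h1 := congrArg ξ (h y hy)
    rw [map_mul, map_mul, MulAut.apply_inv_self] at h1
    exact h1
  · intro h y hy
    have h1 := congrArg (fun v => (ξ⁻¹ : MulAut Γ) v) (h (ξ y) ⟨y, hy, rfl⟩)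
    rw [map_mul, map_mul, MulAut.inv_apply_self] at h1
    exact h1

include hξ in
theorem idx_eq : (d.W ⊓ centralizer (((Ws d).map ξ.toMonoidHom).map (T : Subgroup P).subtype : Set P)).relIndex d.W =
    (pCore 2 P ⊓ ((Ws d).map ξ.toMonoidHom).map (T : Subgroup P).subtype).relIndex
      (((Ws d).map ξ.toMonoidHom).map (T : Subgroup P).subtype) := by
  have hWn := Ws_normal d
  have h1 : d.W ⊓ centralizer (((Ws d).map ξ.toMonoidHom).map (T : Subgroup P).subtype : Set P) =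
      (Ws d ⊓ centralizer ((Ws d).map ξ.toMonoidHom : Set ↥(T : Subgroup P))).map (T : Subgroup P).subtype := by
    rw [cent_map, map_sub (W_le_T d)]
  have h2 : pCore 2 P ⊓ ((Ws d).map ξ.toMonoidHom).map (T : Subgroup P).subtype =
      (Qs T ⊓ (Ws d).map ξ.toMonoidHom).map (T : Subgroup P).subtype := by
    rw [Subgroup.map_inf _ _ _ (T : Subgroup P).subtype_injective, map_sub Q_le]
  have h3 : Qs T ⊓ (Ws d).map ξ.toMonoidHom =
      (Ws d ⊓ centralizer ((Ws d).map ξ.toMonoidHom : Set ↥(T : Subgroup P))).map ξ.toMonoidHom := by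
    rw [cent_tw, tw_tw hξ hWn, inf_comm]
    ext z
    rw [mem_inf, mem_inf]
    refine and_congr_right fun _ => ?_
    rw [← CTW_iff d, mem_centralizer_iff]
    exact ⟨fun h w hw => h w hw, fun h w hw => h w hw⟩
  rw [h1, h2, relIndex_sub, h3]
  conv_lhs => rw [← map_sub (W_le_T d), relIndex_sub]
  exact (relIndex_map_map_of_injective _ _ ξ.injective).symm

include hξ hD in
theorem X_sup : ((Ws d).map ξ.toMonoidHom).map (T : Subgroup P).subtype ⊔ pCore 2 P = d.T0 := by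
  have hWn := Ws_normal d
  have h1 : ∀ a ∈ ((Ws d).map ξ.toMonoidHom).map (T : Subgroup P).subtype,
      ∀ b ∈ ((Ws d).map ξ.toMonoidHom).map (T : Subgroup P).subtype, a * b = b * a := by
    rintro _ ⟨_, ⟨a, ha, rfl⟩, rfl⟩ _ ⟨_, ⟨b, hb, rfl⟩, rfl⟩
    have h2 : a * b = b * a := Subtype.ext (d.W_comm a ha b (d.W_le hb))
    have h3 : ξ a * ξ b = ξ b * ξ a := by rw [← map_mul, h2, map_mul]
    exact congrArg Subtype.val h3
  have h2 : ∀ a ∈ ((Ws d).map ξ.toMonoidHom).map (T : Subgroup P).subtype, a ^ 2 = 1 := by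
    rintro _ ⟨_, ⟨a, ha, rfl⟩, rfl⟩
    have h3 : a ^ 2 = 1 := Subtype.ext (d.W_sq a ha)
    have h4 : (ξ a) ^ 2 = 1 := by rw [← map_pow, h3, map_one]
    exact congrArg Subtype.val h4
  rcases d.off_eq _ (map_subtype_le _) (le_norm_map (tw_normal hWn)) h1 h2 (idx_eq d hξ).le with h3 | h3
  · exfalso
    apply Wx_not_le d hξ hD
    intro z hz
    exact h3 ⟨z, hz, rfl⟩
  · exact h3

include hξ hD in
theorem X_sup' : (Ws d).map ξ.toMonoidHom ⊔ Qs T = T0s d := by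
  have h1 := X_sup d hξ hD
  have h2 : ((Ws d).map ξ.toMonoidHom ⊔ Qs T).map (T : Subgroup P).subtype = d.T0 := by
    rw [Subgroup.map_sup, map_sub Q_le, h1]
  rw [← comap_map_eq_self_of_injective (T : Subgroup P).subtype_injective ((Ws d).map ξ.toMonoidHom ⊔ Qs T), h2]
  rfl

include hξ hD in
theorem T0s_normal : (T0s d).Normal := by
  rw [← X_sup' d hξ hD]
  exact @sup_normal _ _ _ _ (tw_normal (Ws_normal d)) Qs_normal

theorem Qs_le_T0s : Qs T ≤ T0s d := comap_mono d.Q_le_T0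

theorem Ws_le : Ws d ≤ Qs T := comap_mono d.W_le

include hξ hD in
theorem tw_Q_le : (Qs T).map ξ.toMonoidHom ≤ T0s d := by
  rintro _ ⟨q, hq, rfl⟩
  refine d.cent _ (ξ q).2 ?_
  intro a ha
  rw [← X_sup d hξ hD, ← SetLike.mem_coe, @mul_normal _ _ _ _ Q_normal] at ha
  obtain ⟨_, ⟨_, ⟨w, hw, rfl⟩, rfl⟩, g, hg, rfl⟩ := ha
  have h1 : q * w = w * q := Subtype.ext (d.W_comm w hw q hq).symm
  have h2 : ((ξ q : ↥(T : Subgroup P)) : P) * ((ξ w : ↥(T : Subgroup P)) : P) = ξ w * ξ q := by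
    rw [← Subgroup.coe_mul, ← map_mul, h1, map_mul, Subgroup.coe_mul]
  have h3 : ⁅((ξ q : ↥(T : Subgroup P)) : P), ((ξ w : ↥(T : Subgroup P)) : P) * g⁆ =
      (ξ w : ↥(T : Subgroup P)) * (((ξ q : ↥(T : Subgroup P)) : P) * g * ((ξ q : ↥(T : Subgroup P)) : P)⁻¹ * g⁻¹) *
        ((ξ w : ↥(T : Subgroup P)) : P)⁻¹ := by
    rw [commutatorElement_def, ← mul_assoc, h2]
    group
  show ⁅((ξ q : ↥(T : Subgroup P)) : P), ((ξ w : ↥(T : Subgroup P)) : P) * g⁆ ∈ pCore 2 P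
  rw [h3]
  refine Q_normal.conj_mem _ ?_ _
  exact (pCore 2 P).mul_mem (Q_normal.conj_mem _ hg _) ((pCore 2 P).inv_mem hg)

include hξ hD in
theorem tw_T0 : (T0s d).map ξ.toMonoidHom = T0s d := by
  have h1 : (T0s d).map ξ.toMonoidHom ≤ T0s d := by
    conv_lhs => rw [← X_sup' d hξ hD]
    rw [Subgroup.map_sup, tw_tw hξ (Ws_normal d)]
    exact sup_le ((Ws_le d).trans (Qs_le_T0s d)) (tw_Q_le d hξ hD)
  refine le_antisymm h1 ?_
  conv_lhs => rw [← tw_tw hξ (T0s_normal d hξ hD)]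
  exact map_mono h1

include hξ hD in
theorem QQ : Qs T ⊔ (Qs T).map ξ.toMonoidHom = T0s d := by
  apply le_antisymm (sup_le (Qs_le_T0s d) (tw_Q_le d hξ hD))
  rw [← X_sup' d hξ hD]
  exact sup_le ((map_mono (Ws_le d)).trans le_sup_right) le_sup_left

include hξ hD in
/-- `Q = W (Q ∩ Q^ξ)` -/
theorem Q_dec {g : ↥(T : Subgroup P)} (hg : g ∈ Qs T) :
    ∃ w ∈ Ws d, ∃ y ∈ Qs T, y ∈ (Qs T).map ξ.toMonoidHom ∧ w * y = g := by
  have h1 : g ∈ Ws d ⊔ (Qs T).map ξ.toMonoidHom := by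
    have h2 : g ∈ T0s d := Qs_le_T0s d hg
    rw [← tw_T0 d hξ hD, ← X_sup' d hξ hD, Subgroup.map_sup, tw_tw hξ (Ws_normal d)] at h2
    exact h2
  rw [← SetLike.mem_coe, @mul_normal _ _ _ _ (tw_normal Qs_normal)] at h1
  obtain ⟨w, hw, y, hy, rfl⟩ := h1
  refine ⟨w, hw, y, ?_, hy, rfl⟩
  have h2 := (Qs T).mul_mem ((Qs T).inv_mem (Ws_le d hw)) hg
  simpa using h2

/-- the subgroup `C_Q(O²(P))` -/
abbrev Ds (T : Sylow 2 P) : Subgroup ↥(T : Subgroup P) :=
  (pCore 2 P ⊓ centralizer (pResidual 2 P : Set P)).subgroupOf (T : Subgroup P)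

theorem cK_normal : (centralizer (pResidual 2 P : Set P)).Normal := by
  have := K_normal (P := P)
  infer_instance

theorem Ds_normal : (Ds T).Normal := by
  have h1 := Q_normal (P := P)
  have h2 := cK_normal (P := P)
  exact (normal_inf_normal (pCore 2 P) (centralizer (pResidual 2 P : Set P))).subgroupOf _

/-- `w = g⁻¹ k g k⁻¹ ∈ W` -/
theorem comm_mem_W {g k : P} (hg : g ∈ pCore 2 P) (hk : k ∈ pResidual 2 P) :
    ∃ w ∈ d.W, k * g * k⁻¹ = g * w := by
  refine ⟨⁅g⁻¹, k⁆, d.QK (commutator_mem_commutator ((pCore 2 P).inv_mem hg) hk), ?_⟩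
  rw [commutatorElement_def]
  group

include d in
theorem sq_mem {g : P} (hg : g ∈ pCore 2 P) : g ^ 2 ∈ centralizer (pResidual 2 P : Set P) := by
  rw [mem_centralizer_iff]
  intro k hk
  obtain ⟨w, hw, h1⟩ := comm_mem_W d hg hk
  have h2 : k * g ^ 2 * k⁻¹ = g ^ 2 := by
    have h3 : k * g ^ 2 * k⁻¹ = (k * g * k⁻¹) * (k * g * k⁻¹) := by
      rw [pow_two]
      group
    rw [h3, h1, show g * w * (g * w) = g * (w * g) * w by group, d.W_comm w hw g hg,
      show g * (g * w) * w = g ^ 2 * w ^ 2 by rw [pow_two, pow_two]; group, d.W_sq w hw, mul_one]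
  calc k * g ^ 2 = k * g ^ 2 * k⁻¹ * k := by group
    _ = g ^ 2 * k := by rw [h2]

include d in
theorem cm_mem {g h : P} (hg : g ∈ pCore 2 P) (hh : h ∈ pCore 2 P) : ⁅g, h⁆ ∈ centralizer (pResidual 2 P : Set P) := by
  rw [mem_centralizer_iff]
  intro k hk
  obtain ⟨w, hw, h1⟩ := comm_mem_W d hg hk
  obtain ⟨w', hw', h1'⟩ := comm_mem_W d hh hk
  have h2 : k * ⁅g, h⁆ * k⁻¹ = ⁅g, h⁆ := by
    have h3 : k * ⁅g, h⁆ * k⁻¹ = ⁅k * g * k⁻¹, k * h * k⁻¹⁆ := by
      simp only [commutatorElement_def]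
      group
    rw [h3, h1, h1']
    have c1 := d.W_comm w hw g hg
    have c2 := d.W_comm w hw h hh
    have c3 := d.W_comm w' hw' g hg
    have c4 := d.W_comm w' hw' h hh
    have c5 := d.W_comm w hw w' (d.W_le hw')
    have e1 : ⁅g * w, h * w'⁆ = ⁅g, h * w'⁆ := by
      have c6 : w * (h * w') = h * w' * w := by rw [← mul_assoc, c2, mul_assoc, c5, mul_assoc]
      rw [commutatorElement_def, commutatorElement_def, mul_inv_rev]
      calc g * w * (h * w') * (w⁻¹ * g⁻¹) * (h * w')⁻¹ = g * (w * (h * w')) * w⁻¹ * g⁻¹ * (h * w')⁻¹ := by group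
        _ = g * (h * w') * g⁻¹ * (h * w')⁻¹ := by rw [c6]; group
    rw [e1]
    rw [commutatorElement_def, commutatorElement_def, mul_inv_rev]
    calc g * (h * w') * g⁻¹ * (w'⁻¹ * h⁻¹) = g * h * (w' * g⁻¹) * w'⁻¹ * h⁻¹ := by group
      _ = g * h * (g⁻¹ * w') * w'⁻¹ * h⁻¹ := by
        rw [show w' * g⁻¹ = g⁻¹ * w' by
          rw [mul_inv_eq_iff_eq_mul, mul_assoc, c3]; group]
      _ = g * h * g⁻¹ * h⁻¹ := by group
  calc k * ⁅g, h⁆ = k * ⁅g, h⁆ * k⁻¹ * k := by group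
    _ = ⁅g, h⁆ * k := by rw [h2]

include hξ hD in
theorem DD : Ds T ⊓ (Ds T).map ξ.toMonoidHom = ⊥ := by
  by_contra h
  have hn := Ds_normal (T := T)
  refine hD _ h ?_ ?_
  · refine normal_of (T := T) ?_ (le_norm_map (@normal_inf_normal _ _ _ _ hn (tw_normal hn)))
    rw [le_normalizer_iff]
    rintro k hk _ ⟨z, hz, rfl⟩
    have h1 : k * z = z * k := mem_centralizer_iff.1 hz.1.2 k hk
    have h2 : k * (T : Subgroup P).subtype z * k⁻¹ = (T : Subgroup P).subtype z := by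
      show k * (z : P) * k⁻¹ = z
      rw [h1, mul_inv_cancel_right]
    rw [h2]
    exact ⟨z, hz, rfl⟩
  · rw [Subgroup.map_inf _ _ _ ξ.injective, tw_tw hξ hn, inf_comm]

include hξ hD in
theorem swap_main : Swap (T : Subgroup P) ξ d := by
  have key : ∀ z : ↥(T : Subgroup P), z ∈ Ds T → z ∈ (Ds T).map ξ.toMonoidHom → z = 1 := by
    intro z h1 h2
    have h3 : z ∈ Ds T ⊓ (Ds T).map ξ.toMonoidHom := ⟨h1, h2⟩
    rw [DD hξ hD] at h3
    exact h3
  have hcomm : ∀ a ∈ Qs T, ∀ b ∈ Qs T, a * b = b * a := by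
    intro a ha b hb
    obtain ⟨w, hw, y, hy, hy', rfl⟩ := Q_dec d hξ hD ha
    obtain ⟨w', hw', y', hyq', hy'', rfl⟩ := Q_dec d hξ hD hb
    have c1 : ∀ w ∈ Ws d, ∀ q ∈ Qs T, w * q = q * w := fun w hw q hq => Subtype.ext (d.W_comm w hw q hq)
    have h1 : ⁅y, y'⁆ = 1 := by
      apply key
      · refine ⟨?_, cm_mem d hy hyq'⟩
        exact (cm_left Qs_normal hy y' : ⁅y, y'⁆ ∈ Qs T)
      · rw [mem_tw] at hy' hy''
        rw [mem_tw, map_commutatorElement]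
        refine ⟨?_, cm_mem d hy' hy''⟩
        exact (cm_left Qs_normal hy' (ξ⁻¹ y') : ⁅ξ⁻¹ y, ξ⁻¹ y'⁆ ∈ Qs T)
    rw [commutatorElement_eq_one_iff_mul_comm] at h1
    calc w * y * (w' * y') = w * (y * w') * y' := by group
      _ = w * w' * (y * y') := by rw [← c1 w' hw' y hy]; group
      _ = w' * w * (y' * y) := by rw [h1, c1 w hw w' (Ws_le d hw')]
      _ = w' * (w * y') * y := by group
      _ = w' * y' * (w * y) := by rw [c1 w hw y' hyq']; group
  have hsq : ∀ a ∈ Qs T, a ^ 2 = 1 := by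
    intro a ha
    obtain ⟨w, hw, y, hy, hy', rfl⟩ := Q_dec d hξ hD ha
    have c1 : w * y = y * w := Subtype.ext (d.W_comm w hw y hy)
    have h0 : (w * y) ^ 2 = y ^ 2 := by
      rw [pow_two, show w * y * (w * y) = w * (y * w) * y by group, ← c1,
        show w * (w * y) * y = w ^ 2 * y ^ 2 by rw [pow_two, pow_two]; group, show w ^ 2 = 1 from Subtype.ext (d.W_sq w hw), one_mul]
    rw [h0]
    apply key
    · exact ⟨(Qs T).pow_mem hy 2, sq_mem d hy⟩
    · rw [mem_tw] at hy'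
      rw [mem_tw, map_pow]
      exact ⟨(Qs T).pow_mem hy' 2, sq_mem d hy'⟩
  refine ⟨?_, ?_, ?_, QQ d hξ hD, DD hξ hD⟩
  · intro a ha b hb
    exact congrArg Subtype.val (hcomm ⟨a, Q_le ha⟩ ha ⟨b, Q_le hb⟩ hb)
  · intro a ha
    exact congrArg Subtype.val (hsq ⟨a, Q_le ha⟩ ha)
  · apply le_antisymm
    · rintro t ⟨ht, h1⟩
      rw [← d.CTW]
      refine ⟨ht, mem_centralizer_iff.2 fun w hw => ?_⟩
      exact mem_centralizer_iff.1 h1 w (d.W_le hw)
    · intro q hq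
      refine ⟨Q_le hq, mem_centralizer_iff.2 fun w hw => ?_⟩
      exact congrArg Subtype.val (hcomm ⟨w, Q_le hw⟩ hw ⟨q, Q_le hq⟩ hq)

end swap

theorem stSwap : StSwap.{u} := by
  intro P _ _ T _ d ξ hξ hD
  obtain ⟨t₀, ht₀⟩ := hξ
  exact swap_main d ht₀ hD

end Cfsg.Agent.H647.HM
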